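import Cfsg.Agent.H699.P4.Bits

/-!
# S5210, task P4-2R: the embedding into `GL₄(2)` (helper699)
-/

set_option autoImplicit false

namespace Cfsg.Agent.H699.P4

open Cfsg Matrix
open Cfsg.Agent.H776.P4
open Cfsg.Agent.H756.PU (HypK)

universe u

/-- the `2 × 2`-matrices over `F₂` -/
abbrev M2 := Matrix (Fin 2) (Fin 2) (ZMod 2)

/-- the `4 × 4`-matrices over `F₂` -/
abbrev M4 := Matrix (Fin 2 ⊕ Fin 2) (Fin 2 ⊕ Fin 2) (ZMod 2)

namespace Four

variable {K : Type u} [Field K] [StarRing K] (X : Four K)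

/-- the upper right block -/
def bl (x : PG K) : M2 :=
  !![X.c0 x.b, X.c0 x.b * X.c1 x.r + X.c0 x.a + X.c0 x.b + X.c1 x.b; X.c0 x.c, X.c0 x.c * X.c1 x.r + X.c1 x.b]

/-- the matrix -/
def mt (x : PG K) : M4 := fromBlocks !![1, X.c0 x.r; 0, 1] (X.bl x) 0 !![1, X.c1 x.r; 0, 1]

theorem mt_one : X.mt 1 = 1 := by
  have h0 : X.c0 0 = 0 := (X.eq_iff (i := 0) (j := 0) (by simp)).1
  have h1 : X.c1 0 = 0 := (X.eq_iff (i := 0) (j := 0) (by simp)).2
  have e1 : (!![1, 0; 0, 1] : M2) = 1 := Matrix.one_fin_two.symm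
  have e2 : (!![0, 0; 0, 0] : M2) = 0 := by decide
  simp only [mt, bl, PG.one_r, PG.one_a, PG.one_b, PG.one_c, h0, h1, mul_zero, add_zero]
  rw [e1, e2, fromBlocks_one]

theorem mt_mul (x y : PG K) : X.mt (x * y) = X.mt x * X.mt y := by
  have ha : (x * y).a = x.a + y.a + (x.r * star y.b + star x.r * y.b) + (x.r * star x.r) * y.c := by
    rw [PG.mul_a]; ring
  have a0 : X.c0 (x * y).a = X.c0 x.a + X.c0 y.a + (X.c0 x.r * X.c1 y.b + X.c1 x.r * X.c0 y.b) +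
      (X.c0 x.r + X.c0 x.r * X.c1 x.r + X.c1 x.r) * X.c0 y.c := by
    rw [ha, X.tr, X.nm, X.c0_add, X.c0_add, X.c0_add, X.c0_mul_fix _ y.hc, X.c0_e, X.c0_e]
  have b0 : X.c0 (x * y).b = X.c0 x.b + X.c0 y.b + X.c0 x.r * X.c0 y.c := by
    rw [PG.mul_b, X.c0_add, X.c0_add, X.c0_mul_fix _ y.hc]
  have b1 : X.c1 (x * y).b = X.c1 x.b + X.c1 y.b + X.c1 x.r * X.c0 y.c := by
    rw [PG.mul_b, X.c1_add, X.c1_add, X.c1_mul_fix _ y.hc]
  have cc : X.c0 (x * y).c = X.c0 x.c + X.c0 y.c := by rw [PG.mul_c, X.c0_add]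
  have r0 : X.c0 (x * y).r = X.c0 x.r + X.c0 y.r := by rw [PG.mul_r, X.c0_add]
  have r1 : X.c1 (x * y).r = X.c1 x.r + X.c1 y.r := by rw [PG.mul_r, X.c1_add]
  simp only [mt, fromBlocks_multiply, bl, a0, b0, b1, cc, r0, r1]
  generalize X.c0 x.a = xa, X.c0 y.a = ya, X.c0 x.b = xb0, X.c0 y.b = yb0, X.c1 x.b = xb1, X.c1 y.b = yb1,
    X.c0 x.c = xc, X.c0 y.c = yc, X.c0 x.r = xr0, X.c0 y.r = yr0, X.c1 x.r = xr1, X.c1 y.r = yr1
  have h2 := two_zmod
  congr 1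
  · ext i j
    fin_cases i <;> fin_cases j <;> simp
    ring
  · ext i j
    fin_cases i <;> fin_cases j <;> simp
    · ring
    · linear_combination (yb0 * xr1 + xr0 * yc + xr0 * xr1 * yc + xr1 * yc) * h2
    · ring
    · linear_combination (xr1 * yc) * h2
  · simp
  · ext i j
    fin_cases i <;> fin_cases j <;> simp
    ring

theorem mt_inj {x y : PG K} (h : X.mt x = X.mt y) : x = y := by
  obtain ⟨h1, h2, -, h4⟩ := fromBlocks_inj.1 h
  have r0 : X.c0 x.r = X.c0 y.r := congrFun (congrFun h1 0) 1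
  have r1 : X.c1 x.r = X.c1 y.r := congrFun (congrFun h4 0) 1
  have b0 : X.c0 x.b = X.c0 y.b := congrFun (congrFun h2 0) 0
  have c0 : X.c0 x.c = X.c0 y.c := congrFun (congrFun h2 1) 0
  have b1' : X.c0 x.c * X.c1 x.r + X.c1 x.b = X.c0 y.c * X.c1 y.r + X.c1 y.b := congrFun (congrFun h2 1) 1
  have b1 : X.c1 x.b = X.c1 y.b := by rw [c0, r1] at b1'; exact add_left_cancel b1'
  have a0' : X.c0 x.b * X.c1 x.r + X.c0 x.a + X.c0 x.b + X.c1 x.b =
      X.c0 y.b * X.c1 y.r + X.c0 y.a + X.c0 y.b + X.c1 y.b := congrFun (congrFun h2 0) 1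
  have a0 : X.c0 x.a = X.c0 y.a := by
    rw [b0, r1, b1] at a0'
    linear_combination a0'
  exact PG.ext (X.ext_bits r0 r1) (X.ext_bits a0 (by rw [X.c1_fix x.ha, X.c1_fix y.ha])) (X.ext_bits b0 b1)
    (X.ext_bits c0 (by rw [X.c1_fix x.hc, X.c1_fix y.hc]))

/-- the homomorphism into the matrices -/
def mtHom : PG K →* M4 where
  toFun := X.mt
  map_one' := X.mt_one
  map_mul' := X.mt_mul

/-- the homomorphism into the group -/
def io : PG K →* M4ˣ := X.mtHom.toHomUnits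

theorem io_coe (x : PG K) : ((X.io x : M4ˣ) : M4) = X.mt x := rfl

theorem io_inj : Function.Injective X.io := fun _ _ h => X.mt_inj (congrArg Units.val h)

/-- the element with given bits -/
def el (r0 r1 a b0 b1 c : ZMod 2) : PG K where
  r := X.e r0 + X.e r1 * X.w
  a := X.e a
  b := X.e b0 + X.e b1 * X.w
  c := X.e c
  ha := X.star_e a
  hc := X.star_e c

theorem mt_el (r0 r1 a b0 b1 c : ZMod 2) : X.mt (X.el r0 r1 a b0 b1 c) =
    fromBlocks !![1, r0; 0, 1] !![b0, b0 * r1 + a + b0 + b1; c, c * r1 + b1] 0 !![1, r1; 0, 1] := by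
  simp only [mt, bl, el, X.c0_co, X.c1_co, X.c0_e]

/-- the elements of the image -/
theorem exists_mt (p q : ZMod 2) (M : M2) : ∃ x : PG K, X.mt x = fromBlocks !![1, p; 0, 1] M 0 !![1, q; 0, 1] ∧
    (p = 0 → q = 0 → x.r = 0) := by
  refine ⟨X.el p q (M 0 1 - M 0 0 * q - M 0 0 - (M 1 1 - M 1 0 * q)) (M 0 0) (M 1 1 - M 1 0 * q) (M 1 0), ?_, ?_⟩
  · rw [X.mt_el]
    congr 1
    ext i j
    fin_cases i <;> fin_cases j <;> simp
    ring
  · rintro rfl rfl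
    show X.e 0 + X.e 0 * X.w = 0
    simp

end Four

end Cfsg.Agent.H699.P4
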